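import Cfsg.Agent.H559.OZ.SpIso
import Cfsg.Agent.H128.OZ.OddCong

/-!
# S4842: primes `r ∣ q ^ n + 1` not dividing the degree of a character with one zero (helper366)

* `nd_psp` : `PSp_{2n}(q)`;
* `nd_oodd` : `Ω_{2n+1}(q)`, `q` odd, `n ≥ 3`.
-/

set_option autoImplicit false

open Cfsg Cfsg.Agent.Characters Cfsg.Agent.H730.OZ Cfsg.Agent.H477.OZ Cfsg.Agent.H53.HC Cfsg.Agent.H477.HC
open Cfsg.Agent.H366.OZ Cfsg.Agent.H732.VZ Cfsg.Agent.H364.OZ Cfsg.Agent.H559.OZ

namespace Cfsg.Agent.H366.OZ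

universe u

theorem dvd_of_orderOf {q r n : ℕ} (hr : r.Prime) (hn : 2 ≤ n) (h : orderOf (q : ZMod r) = 2 * n) :
    r ∣ q ^ n + 1 ∧ ¬ r ∣ 2 * (1 + q) := by
  have hrf := Fact.mk hr
  have hrq : ¬ r ∣ q := not_dvd_of_order hr (by omega) h
  have hle : 2 * n + 1 ≤ r := by
    have := le_sub_one (q := q) hr hrq
    rw [h] at this
    exact this
  constructor
  · have h1 : ((q : ZMod r) ^ n - 1) * ((q : ZMod r) ^ n + 1) = 0 := by
      have h2 : (q : ZMod r) ^ (2 * n) = 1 := by rw [← h]; exact pow_orderOf_eq_one _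
      have h3 : (q : ZMod r) ^ (2 * n) = ((q : ZMod r) ^ n) * ((q : ZMod r) ^ n) := by rw [two_mul, pow_add]
      rw [h3] at h2
      linear_combination h2
    rcases mul_eq_zero.1 h1 with h2 | h2
    · exfalso
      have h3 : orderOf (q : ZMod r) ∣ n := orderOf_dvd_of_pow_eq_one (sub_eq_zero.1 h2)
      rw [h] at h3
      have := Nat.le_of_dvd (by omega) h3
      omega
    · rw [← ZMod.natCast_eq_zero_iff]
      push_cast
      exact h2
  · intro h1
    rcases hr.dvd_mul.1 h1 with h2 | h2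
    · have := Nat.le_of_dvd two_pos h2
      omega
    · have h3 : (1 : ZMod r) + (q : ZMod r) = 0 := by
        have := (ZMod.natCast_eq_zero_iff (1 + q) r).2 h2
        push_cast at this
        exact this
      have h4 : (q : ZMod r) ^ 2 = 1 := by linear_combination (q - 1 : ZMod r) * h3
      have h5 : orderOf (q : ZMod r) ∣ 2 := orderOf_dvd_of_pow_eq_one h4
      rw [h] at h5
      have := Nat.le_of_dvd two_pos h5
      omega

theorem nd_psp' {S : Type u} [Group S] [Finite S] {F : Type} [Field F] [Fintype F] {n : ℕ} (e : S ≃* PSp n F)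
    (hn : 2 ≤ n) {r : ℕ} (hr : r.Prime)
    (hD : orderOf ((Fintype.card F : ℕ) : ZMod r) = 2 * n) (hex : ¬ (n = 2 ∧ Fintype.card F ≤ 3))
    (χ : IrrCharacter S) (x : S) (hx : One χ x) : ¬ r ∣ charDegree (χ : S → ℂ) := by
  classical
  have hrf := Fact.mk hr
  obtain ⟨π, hπ, hker, hcard⟩ := Cfsg.Agent.H366.OZ.exists_pi e (by omega : 1 ≤ n)
  have hcF : Nat.card F = Fintype.card F := Nat.card_eq_fintype_card
  have hF : 2 ≤ Fintype.card F := Fintype.one_lt_card
  have hrq : ¬ r ∣ Fintype.card F := not_dvd_of_order hr (by omega) hD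
  have hfin : Finite (CForm.spF F n).iso := by
    have : Finite ((Fin n ⊕ Fin n → F) ≃ₗ[F] (Fin n ⊕ Fin n → F)) :=
      Finite.of_injective (fun e => (e : (Fin n ⊕ Fin n → F) → (Fin n ⊕ Fin n → F)))
        (fun a b hab => LinearEquiv.ext fun v => congrFun hab v)
    exact Subtype.finite
  have hfd : Module.finrank F (Fin n ⊕ Fin n → F) = 2 * n := by
    rw [Module.finrank_fintype_fun_eq_card, Fintype.card_sum, Fintype.card_fin]
    ring
  have hr2 : 2 * n + 1 ≤ r := by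
    have := le_sub_one (q := Fintype.card F) hr hrq
    rw [hD] at this
    exact this
  -- the kernel
  have hν : Nat.card π.ker ∣ 2 := by rw [hcard]; exact Nat.gcd_dvd_left _ _
  have hkr : ¬ r ∣ Nat.card π.ker := fun h => by
    have := Nat.le_of_dvd two_pos (h.trans hν)
    omega
  -- `r` divides the order
  have hrG : r ∣ Nat.card (CForm.spF F n).iso := by
    rw [card_eq_mul_ker hπ, hcard, mul_comm, card_psp e (by omega)]
    refine Dvd.dvd.mul_left ?_ _
    have h1 : r ∣ Fintype.card F ^ (2 * n) - 1 := by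
      have h2 : 1 ≤ Fintype.card F ^ (2 * n) := Nat.one_le_pow _ _ (by omega)
      rw [← ZMod.natCast_eq_zero_iff, Nat.cast_sub h2]
      push_cast
      rw [← hD, pow_orderOf_eq_one, sub_self]
    refine h1.trans ?_
    have h3 := Finset.dvd_prod_of_mem (fun i => Fintype.card F ^ (2 * (i + 1)) - 1)
      (Finset.mem_range.2 (by omega : n - 1 < n))
    simpa [show n - 1 + 1 = n by omega] using h3
  obtain ⟨y, hyR, hbig, hRT, hC, hcyc⟩ := exists_big (F := CForm.spF F n) (by rw [hcF]; exact hrq)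
    (by rw [hfd, hcF, hD]; omega) (default : Sylow r (CForm.spF F n).iso) hrG
  have hnd : Nat.card (Subgroup.centralizer ({y} : Set (CForm.spF F n).iso)) ≠ r * Nat.card π.ker ∨
      ∃ m : ℕ, ¬ r ∣ m ∧ ¬ IsConj (π y) (π y ^ m) := by
    refine hbig.card_cent_or (fun a => rfl) (j := n) (by omega) (by rw [hcF, hD]) (fun a _ _ u _ => rfl) hπ hker hkr ?_
    rw [hcF]
    exact numSp hn hF hcard hex
  exact tr_not_dvd hπ hker hkr _ hcyc hbig.orderOf_eq hyR hC hnd χ x hx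

/-- **`PSp_{2n}(q)`** : a prime `r ∣ q ^ n + 1`, `r ∤ 2 (q + 1)`, not dividing the degrees. -/
theorem nd_psp {S : Type u} [Group S] [Finite S] {F : Type} [Field F] [Fintype F] {n : ℕ} (e : S ≃* PSp n F)
    (hn : 2 ≤ n) {p a : ℕ} (hp : p.Prime) (hcard : Fintype.card F = p ^ a) (hex : ¬ (n = 2 ∧ Fintype.card F ≤ 3))
    (hex' : ¬ (n = 3 ∧ Fintype.card F = 2)) :
    ∃ r : ℕ, r.Prime ∧ r ∣ Fintype.card F ^ n + 1 ∧ ¬ r ∣ 2 * (1 + Fintype.card F) ∧
      ∀ χ : S → ℂ, IsIrrCharacter S χ → OneZero χ → ¬ r ∣ charDegree χ := by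
  have hF : 2 ≤ Fintype.card F := Fintype.one_lt_card
  have ha : 0 < a := Nat.pos_of_ne_zero (by rintro rfl; rw [hcard, pow_zero] at hF; omega)
  have h4 : 2 * 2 ≤ 2 * n := Nat.mul_le_mul_left 2 hn
  have h5 : 2 * n ≤ a * (2 * n) := Nat.le_mul_of_pos_left _ ha
  obtain ⟨r, hr, hord⟩ := Cfsg.Agent.Lib.Zsigmondy.exists_prime_orderOf (a := p) (n := a * (2 * n)) hp.two_le
    (by omega) (by omega) (by
      rintro ⟨rfl, h6⟩
      apply hex'
      have h7 : a * n = 3 := by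
        have : 2 * (a * n) = 6 := by rw [← h6]; ring
        omega
      have h8 : n = 3 := by
        rcases (Nat.dvd_prime Nat.prime_three).1 (Dvd.intro_left _ h7) with h | h
        · omega
        · exact h
      have h9 : a = 1 := by
        rw [h8] at h7
        omega
      exact ⟨h8, by rw [hcard, h9]; norm_num⟩)
  have hD := orderOf_of_pow ha hcard hord
  obtain ⟨h6, h7⟩ := dvd_of_orderOf hr hn hD
  refine ⟨r, hr, h6, h7, fun χ hχ hO => ?_⟩
  obtain ⟨x, hx⟩ := (oneZero_iff hχ).1 hO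
  exact nd_psp' e hn hr hD hex ⟨χ, hχ⟩ x hx

/-- `IsoAt` primes do not divide the degrees. -/
theorem isoAt_not_dvd {S : Type u} [Group S] [Finite S] {p r : ℕ} (hr : r.Prime) (hne : r ≠ p)
    (h : Cfsg.Agent.H530.OZ.IsoAt p r S) {χ : S → ℂ} (hχ : IsIrrCharacter S χ) (hO : OneZero χ) : ¬ r ∣ charDegree χ := by
  obtain ⟨x, hx⟩ := (oneZero_iff hχ).1 hO
  obtain ⟨z, h1, h2, h3, h4, h5⟩ := h
  have hI : Cfsg.Agent.H732.VZ.Iso S p r := by
    refine ⟨hr, hne, z, h1, h2, fun y hy _ => h3 y hy, ?_, ?_⟩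
    · rintro v hv ⟨k, hk⟩
      rcases k with _ | k
      · rw [pow_zero] at hk
        exact orderOf_eq_one_iff.1 hk
      · exact absurd (hk ▸ dvd_pow_self p (Nat.succ_ne_zero k)) (h4 v hv)
    · by_contra hcon
      push Not at hcon
      exact h5 ⟨hcon.1, fun m hm => hcon.2 m hm⟩
  exact hI.not_dvd ⟨χ, hχ⟩ x hx

/-- **`Ω_{2n+1}(q)`**, `q` odd : a prime `r ∣ q ^ n + 1`, `r ∤ 2 (q + 1)`, not dividing the degrees. -/
theorem nd_oodd {S : Type u} [Group S] [Finite S] {F : Type} [Field F] [Fintype F] {n : ℕ}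
    (hodd : Odd (Fintype.card F)) (hn : 3 ≤ n) (e : S ≃* POmega F (quadFormOdd n F)) {p f : ℕ} (hp : p.Prime)
    (hcard : Fintype.card F = p ^ f) :
    ∃ r : ℕ, r.Prime ∧ r ∣ Fintype.card F ^ n + 1 ∧ ¬ r ∣ 2 * (1 + Fintype.card F) ∧
      ∀ χ : S → ℂ, IsIrrCharacter S χ → OneZero χ → ¬ r ∣ charDegree χ := by
  have hpf := Fact.mk hp
  have hch : CharP F p := Cfsg.Agent.H128.OZ.charP_of hp hcard
  have hF : 2 ≤ Fintype.card F := Fintype.one_lt_card
  have hf : 0 < f := Nat.pos_of_ne_zero (by rintro rfl; rw [hcard, pow_zero] at hF; omega)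
  have h3 : 3 ≤ 2 * n * f := by
    have : 2 * n * 1 ≤ 2 * n * f := Nat.mul_le_mul_left _ hf
    omega
  obtain ⟨r, hr⟩ := Cfsg.Agent.H530.OZ.exists_prim (p := p) hp.two_le h3 (by
    rintro ⟨rfl, -⟩
    rw [hcard] at hodd
    exact (Nat.not_odd_iff_even.2 ((even_two).pow_of_ne_zero hf.ne')) hodd)
  obtain ⟨h1, h2⟩ := Cfsg.Agent.H128.OZ.prim_minus hr hp.one_le (by omega) hf
  have hord : orderOf (p : ZMod r) = f * (2 * n) := by
    rw [Cfsg.Agent.H128.OZ.prim_orderOf hr hp.one_le, mul_comm]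
  have hD := orderOf_of_pow hf hcard hord
  obtain ⟨h6, h7⟩ := dvd_of_orderOf hr.prime (by omega) hD
  refine ⟨r, hr.prime, h6, h7, fun χ hχ hO => ?_⟩
  exact isoAt_not_dvd hr.prime (fun h0 => hr.nd (h0 ▸ dvd_rfl))
    (Cfsg.Agent.H128.OZ.isoMO (p := p) hodd hn e.symm hr.prime (by rw [hcard]; exact h1) (by rw [hcard]; exact h2)) hχ hO

end Cfsg.Agent.H366.OZ
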