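import Cfsg.Agent.H366.OZ.NotDvd
import Cfsg.Agent.H639.OZ.Asm
import Cfsg.Agent.H769.OZ.SpHD
import Cfsg.Agent.H769.OZ.SpRow
import Cfsg.Agent.H448.OZ.BCMid
import Cfsg.Agent.H477.OZ.PspThirteen

/-!
# S4842: the rows `PSp₆(q)`, `q ≥ 4`, and `PSp₈(q)`, `q ≥ 3` (helper366)
-/

set_option autoImplicit false
set_option linter.unusedSectionVars false

namespace Cfsg.Agent.H366.OZ

open CoxeterSystem Cfsg Cfsg.Agent.Characters Cfsg.Agent.ChevalleyStructure.CoxeterGeom Cfsg.Agent.Tits.Roots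
open Cfsg.Agent.Nodes.TypeC Cfsg.Agent.H604.OZ
open Cfsg.Agent.Nodes Cfsg.Agent.Nodes.Comb Cfsg.Agent.Nodes.Reps Cfsg.Agent.Nodes.WittRoot Cfsg.Agent.Nodes.BNOf
open Cfsg.Agent.Nodes.WittRGD Cfsg.Agent.Nodes.WittAll Cfsg.Agent.Nodes.LeviDec
open Cfsg.Agent.TitsThree Cfsg.Agent.TitsThree.Siegel Cfsg.Agent.TitsThree.WittFrame
  Cfsg.Agent.TitsThree.WittWeyl Cfsg.Agent.TitsThree.FrameCN Cfsg.Agent.TitsThree.SpIdent
open Cfsg.Agent.H985.VZ Cfsg.Agent.H631.VZ Cfsg.Agent.H769.OZ Cfsg.Agent.H730.OZ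

/-- all root groups have order `q` -/
theorem qq_sp {F : Type*} [Field F] [Finite F] {p : ℕ} [Fact p.Prime] [CharP F p] {m : ℕ}
    (hA : AmbT (frame m F) p (KInstSp.model m F).I) (i : Fin m) :
    qq (WittModel.X (KInstSp.model m F)) i = Nat.card F := by
  by_cases h1 : (i : ℕ) + 1 < m
  · exact qq_short (KInstSp.model m F) (i := i) (j := ⟨i + 1, h1⟩) rfl hA
  · exact qq_long (F := F) (p := p) (i := i) h1 hA

/-- the value `x = 6` for `PSp₆(q)` -/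
theorem false_psp3 (F : Type) [Field F] [Fintype F] (hq : 4 ≤ Fintype.card F) {p a : ℕ} (hp : p.Prime) (ha : 0 < a)
    (hF : Fintype.card F = p ^ a) (χ : PSp 3 F → ℂ) (hχ : IsIrrCharacter (PSp 3 F) χ) (hz : OneZero χ)
    (hS : ∑ᶠ u ∈ pSet p (PSp 3 F), χ u = (p : ℂ) ^ (a * 6) * χ 1) : False := by
  have hpf : Fact p.Prime := ⟨hp⟩
  have hch : CharP F p := Cfsg.Agent.H128.OZ.charP_of hp hF
  have cs := (CoxeterMatrix.B 3).toCoxeterSystem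
  have hA : AmbT (frame 3 F) p (KInstSp.model 3 F).I := AmbT.of_amb WittU.amb_Sp p
  have R := rgdC_model (KInstSp.model 3 F) hA (p0 := adm 1) one_ne_zero cs
  have hG := GG_eq (F := F) 3 (by norm_num) cs
  have hT := T_comm (F := F) 3
  have hc : Nat.card F = Fintype.card F := Nat.card_eq_fintype_card
  obtain ⟨t, t', h1, h2, h3, h4, h5⟩ := psp_last_HD (p := p) hA cs (Or.inl rfl) (by omega) (i := (2 : Fin 3)) rfl
  obtain ⟨s, s', k1, k2, k3, k4, k5⟩ := psp_pen_HD (p := p) hA cs (Or.inr ⟨rfl, by omega⟩) (i := (1 : Fin 3)) rfl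
  obtain ⟨r, hr, hr1, hr2, hr3⟩ := nd_psp (MulEquiv.refl (PSp 3 F)) (by norm_num) hp hF (by omega) (by omega)
  rw [hF] at hr1 hr2
  exact Cfsg.Agent.H639.OZ.false_three false R hp hG hT (td_sp hA) ha (fun i => by rw [qq_sp hA i, hc, hF])
    ⟨t, t', ⟨h1, h4⟩, ⟨h2, h5⟩, h3⟩ ⟨s, s', ⟨k1, k4⟩, ⟨k2, k5⟩, k3⟩ hχ hz hS ⟨r, hr, hr1, hr2, hr3 χ hχ hz⟩

/-- the value `x = 8` for `PSp₈(q)` -/
theorem false_psp4 (F : Type) [Field F] [Fintype F] (hq : 3 ≤ Fintype.card F) {p a : ℕ} (hp : p.Prime) (ha : 0 < a)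
    (hF : Fintype.card F = p ^ a) (χ : PSp 4 F → ℂ) (hχ : IsIrrCharacter (PSp 4 F) χ) (hz : OneZero χ)
    (hS : ∑ᶠ u ∈ pSet p (PSp 4 F), χ u = (p : ℂ) ^ (a * 8) * χ 1) : False := by
  have hpf : Fact p.Prime := ⟨hp⟩
  have hch : CharP F p := Cfsg.Agent.H128.OZ.charP_of hp hF
  have cs := (CoxeterMatrix.B 4).toCoxeterSystem
  have hA : AmbT (frame 4 F) p (KInstSp.model 4 F).I := AmbT.of_amb WittU.amb_Sp p
  have R := rgdC_model (KInstSp.model 4 F) hA (p0 := adm 1) one_ne_zero cs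
  have hG := GG_eq (F := F) 4 (by norm_num) cs
  have hT := T_comm (F := F) 4
  have hc : Nat.card F = Fintype.card F := Nat.card_eq_fintype_card
  obtain ⟨t, t', h1, h2, h3, h4, h5⟩ := psp_last_HD (p := p) hA cs (Or.inr rfl) (by omega) (i := (3 : Fin 4)) rfl
  obtain ⟨s, s', k1, k2, k3, k4, k5⟩ := psp_pen_HD (p := p) hA cs (Or.inl ⟨rfl, by omega⟩) (i := (2 : Fin 4)) rfl
  obtain ⟨r, hr, hr1, hr2, hr3⟩ := nd_psp (MulEquiv.refl (PSp 4 F)) (by norm_num) hp hF (by omega) (by omega)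
  rw [hF] at hr1 hr2
  exact Cfsg.Agent.H639.OZ.false_four false R hp hG hT (td_sp hA) ha (fun i => by rw [qq_sp hA i, hc, hF])
    ⟨t, t', ⟨h1, h4⟩, ⟨h2, h5⟩, h3⟩ ⟨s, s', ⟨k1, k4⟩, ⟨k2, k5⟩, k3⟩ hχ hz hS ⟨r, hr, hr1, hr2, hr3 χ hχ hz⟩

/-- **The row `PSp₆(q)`, `q ≥ 4`.** -/
theorem row_psp6 (F : Type) [Field F] [Fintype F] (hq : 4 ≤ Fintype.card F) (hs : IsSimpleGroup (PSp 3 F)) :
    Row (PSp 3 F) := by
  obtain ⟨p, hp⟩ := CharP.exists F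
  obtain ⟨a, hpp, hF⟩ := FiniteField.card F p
  exact H448.OZ.row_psp3 hs (MulEquiv.refl _) hq hpp a.pos hF
    fun χ hχ hz hS => false_psp3 F hq hpp a.pos hF χ hχ hz hS

/-- **The row `PSp₈(q)`, `q ≥ 3`.** -/
theorem row_psp8 (F : Type) [Field F] [Fintype F] (hq : 3 ≤ Fintype.card F) (hs : IsSimpleGroup (PSp 4 F)) :
    Row (PSp 4 F) := by
  obtain ⟨p, hp⟩ := CharP.exists F
  obtain ⟨a, hpp, hF⟩ := FiniteField.card F p
  exact H448.OZ.row_psp4_of hs (MulEquiv.refl _) hq hpp a.pos hF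
    (fun h => H477.OZ.cong_psp8_three (MulEquiv.refl _) h)
    fun χ hχ hz hS => false_psp4 F hq hpp a.pos hF χ hχ hz hS

end Cfsg.Agent.H366.OZ
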