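import Cfsg.Agent.H366.OZ.SpFront
import Cfsg.Agent.H730.OZ.Asm

/-!
# S4842: the family `IsPSp` (helper366)
-/

set_option autoImplicit false

open Cfsg Cfsg.Agent.H730.OZ Cfsg.Agent.H477.OZ

namespace Cfsg.Agent.H366.OZ

universe u

/-- the rows used for the family `IsPSp` -/
structure PspRows : Prop where
  /-- `PSp_4(q)`, `q ≥ 4`, `q ≠ 5` -/
  two : ∀ (F : Type) [Field F] [Fintype F], 4 ≤ Fintype.card F → Fintype.card F ≠ 5 → IsSimpleGroup (PSp 2 F) → Row (PSp 2 F)
  two_three : ∀ (F : Type) [Field F] [Fintype F], Fintype.card F = 3 → IsSimpleGroup (PSp 2 F) → Row (PSp 2 F)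
  two_five : ∀ (F : Type) [Field F] [Fintype F], Fintype.card F = 5 → IsSimpleGroup (PSp 2 F) → Row (PSp 2 F)
  /-- `PSp_6(q)`, `q ≥ 4` -/
  three : ∀ (F : Type) [Field F] [Fintype F], 4 ≤ Fintype.card F → IsSimpleGroup (PSp 3 F) → Row (PSp 3 F)
  three_two : ∀ (F : Type) [Field F] [Fintype F], Fintype.card F = 2 → IsSimpleGroup (PSp 3 F) → Row (PSp 3 F)
  three_three : ∀ (F : Type) [Field F] [Fintype F], Fintype.card F = 3 → IsSimpleGroup (PSp 3 F) → Row (PSp 3 F)
  /-- `PSp_8(q)`, `q ≥ 3` -/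
  four : ∀ (F : Type) [Field F] [Fintype F], 3 ≤ Fintype.card F → IsSimpleGroup (PSp 4 F) → Row (PSp 4 F)
  four_two : ∀ (F : Type) [Field F] [Fintype F], Fintype.card F = 2 → IsSimpleGroup (PSp 4 F) → Row (PSp 4 F)
  five_two : ∀ (F : Type) [Field F] [Fintype F], Fintype.card F = 2 → IsSimpleGroup (PSp 5 F) → Row (PSp 5 F)
  six_two : ∀ (F : Type) [Field F] [Fintype F], Fintype.card F = 2 → IsSimpleGroup (PSp 6 F) → Row (PSp 6 F)
  /-- `n ≥ 5` -/
  cong : ∀ (F : Type) [Field F] [Fintype F] (n p : ℕ) [CharP F p], 5 ≤ n → ¬ ((n = 5 ∨ n = 6) ∧ Fintype.card F = 2) →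
    IsSimpleGroup (PSp n F) → SpCong p n (Fintype.card F) (PSp n F)

/-- **The family `IsPSp`.** -/
theorem row_isPSp_of (R : PspRows) {S : Type u} [Group S] [Finite S] (hs : IsSimpleGroup S) (h : IsPSp S) : Row S := by
  obtain ⟨F, iF, iT, n, hn, hn2, ⟨e⟩⟩ := h
  obtain ⟨p, hp⟩ := CharP.exists F
  have hfin : Finite (PSp n F) := Finite.of_equiv S e.toEquiv
  have hsi : IsSimpleGroup (PSp n F) := e.symm.isSimpleGroup
  have hq : 2 ≤ Fintype.card F := Fintype.one_lt_card
  refine Row.congr e ?_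
  rcases Nat.lt_or_ge n 5 with h5 | h5
  · have h3 : n = 2 ∨ n = 3 ∨ n = 4 := by omega
    rcases h3 with rfl | rfl | rfl
    · have h4 := hn2 rfl
      rcases Nat.lt_or_ge (Fintype.card F) 4 with h6 | h6
      · exact R.two_three F (by omega) hsi
      · by_cases h7 : Fintype.card F = 5
        · exact R.two_five F h7 hsi
        · exact R.two F h6 h7 hsi
    · rcases Nat.lt_or_ge (Fintype.card F) 4 with h6 | h6
      · rcases (by omega : Fintype.card F = 2 ∨ Fintype.card F = 3) with h7 | h7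
        · exact R.three_two F h7 hsi
        · exact R.three_three F h7 hsi
      · exact R.three F h6 hsi
    · rcases Nat.lt_or_ge (Fintype.card F) 3 with h6 | h6
      · exact R.four_two F (by omega) hsi
      · exact R.four F h6 hsi
  · by_cases hex : (n = 5 ∨ n = 6) ∧ Fintype.card F = 2
    · obtain ⟨rfl | rfl, h2⟩ := hex
      · exact R.five_two F h2 hsi
      · exact R.six_two F h2 hsi
    · exact row_psp (MulEquiv.refl _) hsi h5 hex (p := p) (R.cong F n p h5 hex hsi)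

end Cfsg.Agent.H366.OZ
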