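import Cfsg.Agent.H366.OZ.SpDisp
import Cfsg.Agent.H477.OZ.SpC
import Cfsg.Agent.H769.OZ.SpRow
import Cfsg.Agent.H245.OZ.SpFiveRow
import Cfsg.Agent.H933.OZ.Psp43
import Cfsg.Agent.H333.OZ.Psp63
import Cfsg.Agent.H348.OZ.RowSpEight
import Cfsg.Agent.H890.OZ.RowSpTen

/-!
# S4842: the family `IsPSp`, modulo `PSp_6(q)` (`q ≠ 3`), `PSp_8(q)` (`q ≥ 3`), `PSp_12(2)` (helper366)
-/

set_option autoImplicit false

open Cfsg Cfsg.Agent.H730.OZ Cfsg.Agent.H477.OZ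

namespace Cfsg.Agent.H366.OZ

/-- the remaining rows -/
theorem pspRows_of
    (three : ∀ (F : Type) [Field F] [Fintype F], 4 ≤ Fintype.card F → IsSimpleGroup (PSp 3 F) → Row (PSp 3 F))
    (three_two : ∀ (F : Type) [Field F] [Fintype F], Fintype.card F = 2 → IsSimpleGroup (PSp 3 F) → Row (PSp 3 F))
    (four : ∀ (F : Type) [Field F] [Fintype F], 3 ≤ Fintype.card F → IsSimpleGroup (PSp 4 F) → Row (PSp 4 F))
    (six_two : ∀ (F : Type) [Field F] [Fintype F], Fintype.card F = 2 → IsSimpleGroup (PSp 6 F) → Row (PSp 6 F)) :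
    PspRows where
  two F _ _ h4 h5 hs := Cfsg.Agent.H769.OZ.row_psp4 F h4 h5 hs
  two_three F _ _ hF hs := Cfsg.Agent.H933.OZ.U42.row_psp43 hF (MulEquiv.refl _)
  two_five F _ _ hF hs := Cfsg.Agent.H245.OZ.row_psp45 hs hF (MulEquiv.refl _)
  three := three
  three_two := three_two
  three_three F _ _ hF hs := Cfsg.Agent.H333.OZ.row_psp6_3 F hF hs
  four := four
  four_two F _ _ hF hs := Cfsg.Agent.H348.OZ.row_psp8_two hs hF ⟨MulEquiv.refl _⟩
  five_two F _ _ hF hs := Cfsg.Agent.H890.OZ.row_psp10_two hs hF ⟨MulEquiv.refl _⟩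
  six_two := six_two
  cong F _ _ n p _ hn hex hs := spCong_psp (MulEquiv.refl _) (by omega)

end Cfsg.Agent.H366.OZ
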