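import Cfsg.Agent.H366.OZ.SpFin
import Cfsg.Agent.H366.OZ.SpAsm
import Cfsg.Agent.H348.OZ.RowSpTwelve
import Cfsg.Agent.H656.OZ.SpSixTwo

/-!
# S4842: the family `IsPSp` (helper366)
-/

set_option autoImplicit false

open Cfsg

namespace Cfsg.Agent.H366.OZ

universe u

/-- **The symplectic groups.** -/
theorem row_isPSp {S : Type u} [Group S] [Finite S] (hs : IsSimpleGroup S) (h : IsPSp S) : Cfsg.Agent.H730.OZ.Row S := by
  refine row_isPSp_of (pspRows_of row_psp6 (fun F _ _ hF _ => ?_) row_psp8 (fun F _ _ hF hs' => ?_)) hs h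
  · have : Finite (PSp 3 F) := inferInstance
    exact Cfsg.Agent.H656.OZ.row_psp62 hF (MulEquiv.refl _)
  · have : Finite (PSp 6 F) := inferInstance
    exact Cfsg.Agent.H348.OZ.row_psp12_two hs' hF ⟨MulEquiv.refl _⟩

end Cfsg.Agent.H366.OZ
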